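import Cfsg.Agent.H9.Ot.Basic

set_option autoImplicit false
set_option linter.style.haveILetI false
set_option linter.unusedVariables false
set_option maxRecDepth 100000
set_option maxHeartbeats 0

namespace Cfsg.Agent.H9.Ot

/-- rows of a 3 by 3 boolean matrix -/
def B9 : Type := (Bool × Bool × Bool) × (Bool × Bool × Bool) × (Bool × Bool × Bool)

instance : DecidableEq B9 :=
  inferInstanceAs (DecidableEq ((Bool × Bool × Bool) × (Bool × Bool × Bool) × (Bool × Bool × Bool)))
instance : Fintype B9 :=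
  inferInstanceAs (Fintype ((Bool × Bool × Bool) × (Bool × Bool × Bool) × (Bool × Bool × Bool)))

def rowm (a : Bool × Bool × Bool) (B : B9) : Bool × Bool × Bool :=
  (((a.1 && B.1.1) ^^ (a.2.1 && B.2.1.1)) ^^ (a.2.2 && B.2.2.1),
   ((a.1 && B.1.2.1) ^^ (a.2.1 && B.2.1.2.1)) ^^ (a.2.2 && B.2.2.2.1),
   ((a.1 && B.1.2.2) ^^ (a.2.1 && B.2.1.2.2)) ^^ (a.2.2 && B.2.2.2.2))

instance : Mul B9 := ⟨fun A B => (rowm A.1 B, rowm A.2.1 B, rowm A.2.2 B)⟩
instance : One B9 := ⟨((true, false, false), (false, true, false), (false, false, true))⟩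

abbrev M2 := Matrix (Fin 3) (Fin 3) (ZMod 2)

def bz (b : Bool) : ZMod 2 := cond b 1 0

def toM (A : B9) : M2 := !![bz A.1.1, bz A.1.2.1, bz A.1.2.2; bz A.2.1.1, bz A.2.1.2.1, bz A.2.1.2.2;
  bz A.2.2.1, bz A.2.2.2.1, bz A.2.2.2.2]

theorem bz_and (a b : Bool) : bz (a && b) = bz a * bz b := by revert a b; decide
theorem bz_xor (a b : Bool) : bz (a ^^ b) = bz a + bz b := by revert a b; decide
theorem bz_inj : Function.Injective bz := by decide

theorem toM_mul (A B : B9) : toM (A * B) = toM A * toM B := by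
  ext i j
  rw [Matrix.mul_apply, Fin.sum_univ_three]
  fin_cases i <;> fin_cases j <;> simp only [toM]
  all_goals
    show bz _ = bz _ * bz _ + bz _ * bz _ + bz _ * bz _
    rw [← bz_and, ← bz_and, ← bz_and, ← bz_xor, ← bz_xor]
    rfl

theorem toM_one : toM 1 = 1 := by decide

theorem toM_bij : Function.Bijective toM := by
  constructor
  · intro A B h
    have e : ∀ i j, toM A i j = toM B i j := fun i j => by rw [h]
    obtain ⟨⟨a1, a2, a3⟩, ⟨a4, a5, a6⟩, ⟨a7, a8, a9⟩⟩ := A
    obtain ⟨⟨b1, b2, b3⟩, ⟨b4, b5, b6⟩, ⟨b7, b8, b9⟩⟩ := B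
    have h1 := bz_inj (e 0 0)
    have h2 := bz_inj (e 0 1)
    have h3 := bz_inj (e 0 2)
    have h4 := bz_inj (e 1 0)
    have h5 := bz_inj (e 1 1)
    have h6 := bz_inj (e 1 2)
    have h7 := bz_inj (e 2 0)
    have h8 := bz_inj (e 2 1)
    have h9 := bz_inj (e 2 2)
    simp only at h1 h2 h3 h4 h5 h6 h7 h8 h9
    subst h1 h2 h3 h4 h5 h6 h7 h8 h9
    rfl
  · intro M
    have hs : ∀ z : ZMod 2, ∃ b, bz b = z := by decide
    choose f hf using hs
    refine ⟨((f (M 0 0), f (M 0 1), f (M 0 2)), (f (M 1 0), f (M 1 1), f (M 1 2)),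
      (f (M 2 0), f (M 2 1), f (M 2 2))), ?_⟩
    ext i j
    fin_cases i <;> fin_cases j <;> exact hf _

theorem toM_chain (n : ℕ) (A : B9) : toM (chain n A) = chain n (toM A) := by
  unfold chain
  simp only [apply_ite toM, toM_mul]

abbrev GL3 := (Matrix (Fin 3) (Fin 3) (ZMod 2))ˣ

def tG : ℕ → ℕ := fun n => if n = 2 then 22 else if n = 3 then 57 else if n = 4 then 64 else
  if n = 6 then 78 else if n = 7 then 49 else if n = 12 then 120 else if n = 14 then 70 else
  if n = 21 then 105 else if n = 28 then 112 else if n = 42 then 126 else if n = 84 then 168 else 0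

theorem cntG : ∀ n ∈ DD, (Finset.univ.filter (fun A : B9 => chain n A = 1)).card = tG n := by
  decide +kernel

theorem ff_GL (n : ℕ) (hn : n ∈ DD) : ff GL3 n = tG n := by
  have hn0 : n ≠ 0 := by
    rintro rfl; exact absurd hn (by decide)
  rw [← cntG n hn, ← Fintype.card_subtype, ← Nat.card_eq_fintype_card]
  unfold ff
  have e1 : Nat.card {A : B9 // chain n A = 1} = Nat.card {M : M2 // M ^ n = 1} := by
    apply Nat.card_congr
    refine (Equiv.ofBijective toM toM_bij).subtypeEquiv ?_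
    intro A
    show chain n A = 1 ↔ toM A ^ n = 1
    rw [← chain_eq n hn, ← toM_chain, ← toM_one]
    exact ⟨fun h => by rw [h], fun h => toM_bij.1 h⟩
  rw [e1]
  apply Nat.card_congr
  exact
    { toFun := fun g => ⟨(g.1 : M2), by
        have := congrArg Units.val g.2
        rwa [Units.val_pow_eq_pow_val] at this⟩
      invFun := fun M => ⟨Units.ofPowEqOne M.1 n M.2 hn0, by
        apply Units.ext
        rw [Units.val_pow_eq_pow_val]
        exact M.2⟩
      left_inv := fun g => Subtype.ext (Units.ext rfl)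
      right_inv := fun M => Subtype.ext rfl }

theorem fin_GL : Finite GL3 := inferInstance

theorem pGL : Prof GL3 tG := by
  refine ⟨fin_GL, ?_, ff_GL⟩
  have h1 : ff GL3 84 = 168 := ff_GL 84 (by decide)
  have h2 : Nat.card GL3 = 168 := by
    have := Matrix.card_GL_field (𝔽 := ZMod 2) 3
    rw [this]
    simp [Fin.prod_univ_three, ZMod.card]
  intro g
  by_contra hg
  have h3 : ff GL3 84 < Nat.card GL3 := by
    unfold ff
    haveI := fin_GL
    haveI := Fintype.ofFinite GL3
    classical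
    rw [Nat.card_eq_fintype_card, Nat.card_eq_fintype_card]
    exact Fintype.card_subtype_lt hg
  omega

def tu (M : M2) (h : M * M = 1) : GL3 := ⟨M, M, h, h⟩

def TT : Fin 6 → GL3 := ![
  tu !![1, 1, 0; 0, 1, 0; 0, 0, 1] (by decide),
  tu !![1, 0, 1; 0, 1, 0; 0, 0, 1] (by decide),
  tu !![1, 0, 0; 0, 1, 1; 0, 0, 1] (by decide),
  tu !![1, 0, 0; 1, 1, 0; 0, 0, 1] (by decide),
  tu !![1, 0, 0; 0, 1, 0; 1, 0, 1] (by decide),
  tu !![1, 0, 0; 0, 1, 0; 0, 1, 1] (by decide)]

-- 12=0, 13=1, 23=2, 21=3, 31=4, 32=5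
theorem TT_comm : ∀ i, ∃ a b, TT i = TT a * TT b * (TT a)⁻¹ * (TT b)⁻¹ := by
  have h : ∀ i, TT i = TT (![1, 0, 3, 2, 5, 4] i) * TT (![5, 2, 1, 4, 3, 0] i) *
      (TT (![1, 0, 3, 2, 5, 4] i))⁻¹ * (TT (![5, 2, 1, 4, 3, 0] i))⁻¹ := by
    intro i
    fin_cases i <;> exact Units.ext (by decide)
  exact fun i => ⟨_, _, h i⟩

theorem not_solv : ¬ Group.IsSolvable GL3 := by
  have h : ∀ n i, TT i ∈ derivedSeries GL3 n := by
    intro n
    induction n with
    | zero => intro i; exact Subgroup.mem_top _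
    | succ n ih =>
      intro i
      obtain ⟨a, b, hab⟩ := TT_comm i
      rw [hab]
      exact Subgroup.commutator_mem_commutator (ih a) (ih b)
  rintro ⟨n, hn⟩
  have := h n 0
  rw [hn, Subgroup.mem_bot] at this
  have h2 := congrArg Units.val this
  exact absurd h2 (by decide)

end Cfsg.Agent.H9.Ot
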